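/- S5228: codes of the elements of the group of order `3 ^ 10` and the kernel checkers (definitions). -/
import Cfsg.Agent.FUS.T3.TabD
set_option autoImplicit false

namespace CL.T3
open CL.K

/-- evaluate `n` to a literal before passing it to `f` -/
noncomputable def frc {β : Type} (n : ℕ) (f : ℕ → β) : β :=
  Nat.rec (motive := fun _ => β) (f (nat_lit 0)) (fun m _ => f m) (Nat.succ n)

@[simp] theorem frc_eq {β : Type} (n : ℕ) (f : ℕ → β) : frc n f = f n := rfl

/-- five bytes `≤ 6` are reduced modulo `3` and read as a number in base `3` -/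
def red (s : ℕ) : ℕ := Nat.mod (Nat.sub s (Nat.mul (nat_lit 3)
  (Nat.land (Nat.shiftRight (Nat.mul s (nat_lit 11)) (nat_lit 5)) (nat_lit 0x0303030303)))) (nat_lit 253)

/-- the five digits of `v < 243` in base `3`, as bytes -/
noncomputable def sp (v : ℕ) : ℕ := Nat.land (Nat.shiftRight tS (Nat.mul (nat_lit 40) v)) (nat_lit 0xffffffffff)

/-- the product of the codes `243 * r` and `243 * q`: quotient by `243` from bit 40 on, below it `sp` of the remainder -/
noncomputable def fA (q r : ℕ) : ℕ :=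
  Nat.land (Nat.shiftRight (tA_0_243 q) (Nat.mul (nat_lit 48) r)) (nat_lit 0xffffffffffff)

/-- `sp` of the conjugate of `v < 243` by `243 * q` -/
noncomputable def fB (q v : ℕ) : ℕ :=
  Nat.land (Nat.shiftRight (tB_0_243 q) (Nat.mul (nat_lit 40) v)) (nat_lit 0xffffffffff)

def fin3 (t b c : ℕ) : ℕ := Nat.add (Nat.mul (Nat.shiftRight t (nat_lit 40)) (nat_lit 243))
  (red (Nat.add (Nat.add (Nat.land t (nat_lit 0xffffffffff)) b) c))

/-- product of codes; the code `x = ∑ dⱼ 3 ^ j < 3 ^ 10` stands for `g₉ ^ d₉ ⋯ g₀ ^ d₀` -/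
noncomputable def mu (x y : ℕ) : ℕ := frc (Nat.div y (nat_lit 243)) fun q =>
  fin3 (fA q (Nat.div x (nat_lit 243))) (fB q (Nat.mod x (nat_lit 243))) (sp (Nat.mod y (nat_lit 243)))

/-- inverse -/
noncomputable def iv (x : ℕ) : ℕ := Nat.land (Nat.shiftRight (frc (Nat.div x (nat_lit 243)) tI_0_243)
  (Nat.mul (nat_lit 16) (Nat.mod x (nat_lit 243)))) (nat_lit 65535)

/-- `x⁻¹ y⁻¹ x y` -/
noncomputable def cmc (x y : ℕ) : ℕ := mu (iv (mu y x)) (mu x y)

/-- `h x h⁻¹` -/
noncomputable def cjc (h x : ℕ) : ℕ := mu (mu h x) (iv h)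

/-- `x ^ 3` -/
noncomputable def cub (x : ℕ) : ℕ := mu (mu x x) x

/-- `x y = y x` -/
noncomputable def cmB (x y : ℕ) : Bool := Nat.beq (mu x y) (mu y x)

/-- A subgroup is described by ten entries `D j`, `j < 10`: `0`, or a code in `[3 ^ j, 2 * 3 ^ j)`.  Packed form. -/
def en (A j : ℕ) : ℕ := Nat.land (Nat.shiftRight A (Nat.mul (nat_lit 16) j)) (nat_lit 65535)

def p3 (j : ℕ) : ℕ := Nat.pow (nat_lit 3) j

def isz (a : ℕ) : Bool := Nat.beq a (nat_lit 0)

def wfj (a j : ℕ) : Bool := isz a || (Nat.ble (p3 j) a && Nat.blt a (Nat.mul (nat_lit 2) (p3 j)))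

noncomputable def wf (D : ℕ → ℕ) : Bool := allLt (fun j => wfj (D j) j) (nat_lit 10)

/-- reduction of `x` to `0` by the entries below level `j` -/
noncomputable def sift (D : ℕ → ℕ) (j : ℕ) : ℕ → Bool :=
  Nat.rec (motive := fun _ => ℕ → Bool) isz (fun j ih x => bif Nat.blt x (p3 j) then ih x else !isz (D j) &&
    frc (bif Nat.blt x (Nat.mul (nat_lit 2) (p3 j)) then mu (mu x (D j)) (D j) else mu x (D j)) ih) j

/-- membership test -/
noncomputable def inn (D : ℕ → ℕ) (x : ℕ) : Bool :=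
  frc x fun x => Nat.blt x (nat_lit 59049) && sift D (nat_lit 10) x

/-- `p` holds for the nonzero entries -/
noncomputable def allE (D : ℕ → ℕ) (p : ℕ → Bool) : Bool :=
  allLt (fun j => frc (D j) fun a => isz a || p a) (nat_lit 10)

/-- `p` holds for the pairs of nonzero entries `D i, D j`, `i < j` -/
noncomputable def allP (D : ℕ → ℕ) (p : ℕ → ℕ → Bool) : Bool :=
  allLt (fun j => frc (D j) fun b => isz b || allLt (fun i => frc (D i) fun a => isz a || p a b) j) (nat_lit 10)

/-- `p` holds for some nonzero entry -/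
noncomputable def anyE (D : ℕ → ℕ) (p : ℕ → Bool) : Bool :=
  anyLt (fun j => frc (D j) fun a => !isz a && p a) (nat_lit 10)

/-- `p` holds for the nonzero products `t * ∏ A i ^ dᵢ` over the levels `i < j` of `A` that are not levels of `U` -/
noncomputable def allT (A U : ℕ → ℕ) (p : ℕ → Bool) (j : ℕ) : ℕ → Bool :=
  Nat.rec (motive := fun _ => ℕ → Bool) (fun t => isz t || p t) (fun j ih t => ih t &&
    (isz (A j) || (!isz (U j) || frc (mu t (A j)) fun t' => ih t' && frc (mu t' (A j)) ih))) j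

/-- the entries form a polycyclic sequence -/
noncomputable def pcB (U : ℕ → ℕ) : Bool :=
  wf U && (allE U (fun u => inn U (cub u)) && allP U fun a b => inn U (cmc a b))

/-- every entry of `U` is `[x, y] z ^ 3` with `x, y, z ∈ B` -/
noncomputable def phLB (B U x y z : ℕ → ℕ) : Bool :=
  wf U && allLt (fun j => isz (U j) || (inn B (x j) && (inn B (y j) && (inn B (z j) &&
    Nat.beq (U j) (mu (cmc (x j) (y j)) (cub (z j))))))) (nat_lit 10)

/-- a step in the construction of invariant subgroups: Frattini subgroup of `b`; `{y | [y, b] ≤ c}`; `Ω₁` -/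
inductive Nd
  | fr (b U x y z : ℕ)
  | ce (b c U : ℕ)
  | om (U x : ℕ)

def Nd.u : Nd → ℕ
  | .fr _ U _ _ _ => U
  | .ce _ _ U => U
  | .om U _ => U

noncomputable def frB (B U x y z : ℕ → ℕ) : Bool :=
  phLB B U x y z && (pcB U && (allE B (fun a => inn U (cub a) && allE U fun u => inn U (cmc u a)) &&
    allP B fun a b => inn U (cmc a b)))

noncomputable def ceB (A B C U : ℕ → ℕ) : Bool :=
  wf U && (allE U (fun u => inn A u && allE B fun b => inn C (cmc u b)) &&
    allT A U (fun t => anyE B fun b => !inn C (cmc t b)) (nat_lit 10) (nat_lit 0))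

noncomputable def omB (A U x : ℕ → ℕ) : Bool :=
  pcB U && (allLt (fun j => inn A (U j) && (inn A (x j) && (isz (cub (x j)) && isz (cub (mu (x j) (U j)))))) (nat_lit 10) &&
    allT A (fun _ => nat_lit 0) (fun t => !isz (cub t) || inn U t) (nat_lit 10) (nat_lit 0))

noncomputable def Nd.ok (A : ℕ → ℕ) (st : List ℕ) : Nd → Bool :=
  Nd.rec (fun b U x y z => frB (en (st.getD b (nat_lit 0))) (en U) (en x) (en y) (en z))
    (fun b c U => ceB A (en (st.getD b (nat_lit 0))) (en (st.getD c (nat_lit 0))) (en U))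
    (fun U x => omB A (en U) (en x))

/-- run a program; new subgroups are put in front of the stack; an index outside the stack is the trivial group -/
noncomputable def runP (A : ℕ → ℕ) (prog : List Nd) : List ℕ → Bool :=
  List.rec (motive := fun _ => List ℕ → Bool) (fun _ => true) (fun nd _ ih st => nd.ok A st && ih (nd.u :: st)) prog

/-- `x ∉ A`, `[A, x] ≤ U` -/
noncomputable def kill0 (A U : ℕ → ℕ) (x : ℕ) : Bool :=
  Nat.blt x (nat_lit 59049) && (!inn A x && allE A fun a => inn U (cmc a x))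

/-- `x ∉ A`, `[A, x] ≤ U`, `[U, x] ≤ F` -/
noncomputable def kill1 (A U F : ℕ → ℕ) (x : ℕ) : Bool := kill0 A U x && allE U fun u => inn F (cmc u x)

def upd (D : ℕ → ℕ) (j v : ℕ) : ℕ → ℕ := fun i => bif Nat.beq i j then v else D i

/-- the candidates for a maximal subgroup of `A` that contains the `A j` with `K j ≠ 0` or `j < i`, but not `A i` -/
noncomputable def hyp (A K : ℕ → ℕ) (i : ℕ) (p : (ℕ → ℕ) → ℕ → Bool) (j : ℕ) : (ℕ → ℕ) → ℕ → Bool :=
  Nat.rec (motive := fun _ => (ℕ → ℕ) → ℕ → Bool) p (fun j ih D c =>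
    bif Nat.ble j i || (isz (A j) || !isz (K j)) then ih D c else
      frc (Nat.mul (nat_lit 3) c) fun c => ih D c && frc (mu (A j) (A i)) fun b => ih (upd D j b) (Nat.succ c) &&
        frc (mu b (A i)) fun b' => ih (upd D j b') (Nat.succ (Nat.succ c))) j

/-- for `K j = c + 1` the element `c` centralizes `A` and `A j * c ∈ F` -/
noncomputable def kB (A F K : ℕ → ℕ) : Bool :=
  allLt (fun j => isz (K j) || frc (Nat.pred (K j)) fun c => Nat.blt c (nat_lit 59049) &&
    ((isz c || allE A (cmB c)) && inn F (mu (A j) c))) (nat_lit 10)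

/-- the candidate `D` is centralized by `h ∉ D` (`k = 0`), or it is the conjugate by `h` of the class `k - 1` -/
noncomputable def leaf2 (cls : ℕ → ℕ) (N : ℕ) (D : ℕ → ℕ) (h k : ℕ) : Bool :=
  Nat.blt h (nat_lit 59049) && bif isz k then allE D (cmB h) && !inn D h else Nat.ble k N &&
    frc (cls (Nat.pred k)) fun B =>
      allLt (fun j => bif isz (en B j) then isz (D j) else inn D (cjc h (en B j))) (nat_lit 10)

noncomputable def leaf (cls : ℕ → ℕ) (N : ℕ) (A : ℕ → ℕ) (i C : ℕ) (D : ℕ → ℕ) (c : ℕ) : Bool :=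
  allLt (fun j => wfj (D j) j && (!isz (D j) || (Nat.beq j i || isz (A j)))) (nat_lit 10) &&
    frc (en C (Nat.mul (nat_lit 2) c)) fun h => frc (en C (Nat.succ (Nat.mul (nat_lit 2) c))) (leaf2 cls N D h)

noncomputable def stepB (cls : ℕ → ℕ) (N : ℕ) (A K : ℕ → ℕ) (C : ℕ) : Bool :=
  allLt (fun i => isz (A i) || (!isz (K i) ||
    hyp A K i (leaf cls N A i C) (nat_lit 10) (upd A i (nat_lit 0)) (nat_lit 1))) (nat_lit 10)

/-- the certificate of a class -/
structure Rc where
  F : ℕ
  x : ℕ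
  y : ℕ
  z : ℕ
  K : ℕ
  C : ℕ
  prog : List Nd
  w : ℕ

/-- the stack after a program -/
def stk (prog : List Nd) (st : List ℕ) : List ℕ := (prog.map Nd.u).reverse ++ st

noncomputable def killB (A : ℕ) (r : Rc) : Bool :=
  List.rec (motive := fun _ => Bool) (kill0 (en A) (en r.F) r.w) (fun _ _ _ => runP (en A) r.prog [A] &&
    kill1 (en A) (en ((stk r.prog [A]).getD (nat_lit 0) (nat_lit 0))) (en r.F) r.w) r.prog

/-- check of the class `k` -/
noncomputable def clsB (cls : ℕ → ℕ) (N : ℕ) (spl : List ℕ) (k : ℕ) (r : Rc) : Bool :=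
  frc (cls k) fun A => wf (en A) && (phLB (en A) (en r.F) (en r.x) (en r.y) (en r.z) && (kB (en A) (en r.F) (en r.K) &&
    (stepB cls N (en A) (en r.K) r.C && (spl.any (Nat.beq k) || killB A r))))

/-- check of the classes `k, k + 1, …` -/
noncomputable def clsL (cls : ℕ → ℕ) (N : ℕ) (spl : List ℕ) (l : List Rc) : ℕ → Bool :=
  List.rec (motive := fun _ => ℕ → Bool) (fun _ => true)
    (fun r _ ih k => clsB cls N spl k r && frc (Nat.succ k) ih) l

end CL.T3
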