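/- S5228: kernel checks for the characteristic series. -/
import Cfsg.Agent.FUS.T3.Chk
set_option autoImplicit false
set_option Elab.async false
set_option maxRecDepth 100000

namespace CL.T3
open CL.K

/-- the entries of `G j` -/
def dG (j : ℕ) : ℕ → ℕ := en (Nat.mod (nat_lit 0x4ce319a1088b02d900f30051001b000900030001) (Nat.pow 2 (Nat.mul 16 j)))
def dE : ℕ → ℕ := en (nat_lit 0x4ce30000088b02d900f30051001b000900030001)
def dU : ℕ → ℕ := en (nat_lit 0x088b000000f30051001b000900030001)
def dW : ℕ → ℕ := en (nat_lit 0x12f0000001f000900040001)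
def dV : ℕ → ℕ := en (nat_lit 0xe3d000000f30051001b000900030001)

/-- `[A, B] ≤ C` on entries -/
noncomputable def biB (A B C : ℕ → ℕ) : Bool := allE A fun a => allE B fun b => inn C (cmc a b)

theorem dG_eq : ∀ j ≤ 10, ∀ i < 10, dG j i = if i < j then 3 ^ i else 0 := by decide +kernel
theorem ceT1 : ceB (dG 10) (dG 10) (dG 0) (dG 1) = true := by decide +kernel
theorem ceT2 : ceB (dG 10) (dG 10) (dG 1) (dG 2) = true := by decide +kernel
theorem ceT3 : ceB (dG 10) (dG 10) (dG 2) (dG 3) = true := by decide +kernel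
theorem ceT4 : ceB (dG 10) (dG 10) (dG 3) (dG 4) = true := by decide +kernel
theorem ceT6 : ceB (dG 10) (dG 10) (dG 4) (dG 6) = true := by decide +kernel
theorem ceT8 : ceB (dG 10) (dG 10) (dG 6) (dG 8) = true := by decide +kernel
theorem ceT9 : ceB (dG 10) (dG 2) (dG 0) (dG 9) = true := by decide +kernel
theorem frT7 : frB (dG 10) (dG 7) (en 0x4ce34ce319a14ce34ce319a14ce3) (en 0x19a102d902d90051001b00090003) (en 0) = true := by
  decide +kernel
theorem ceT5 : ceB (dG 10) (dG 7) (dG 2) (dG 5) = true := by decide +kernel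
theorem ceTE : ceB (dG 10) (dG 3) (dG 1) dE = true := by decide +kernel
theorem ceTU : ceB (dG 10) (dG 9) (dG 4) dU = true := by decide +kernel
theorem ce92 : ceB (dG 9) (dG 9) (dG 0) (dG 2) = true := by decide +kernel
theorem ceE1 : ceB dE dE (dG 0) (dG 1) = true := by decide +kernel
theorem frEW : frB dE dW (en 0x99c600001116000000361116) (en 0x1116000005b2000011160012) (en 0x4ce300000000) = true := by
  decide +kernel
theorem ceE3 : ceB dE dW (dG 0) (dG 3) = true := by decide +kernel
theorem ceEV : ceB dE (dG 3) (dG 0) dV = true := by decide +kernel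
theorem ceE4 : ceB dE dV (dG 1) (dG 4) = true := by decide +kernel
theorem ceE8 : ceB dE (dG 2) (dG 0) (dG 8) = true := by decide +kernel
theorem ceE6 : ceB dE (dG 8) (dG 3) (dG 6) = true := by decide +kernel

end CL.T3
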