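/- S5228: facts on the multiplication of codes. -/
import Cfsg.Agent.FUS.T3.Chk
set_option autoImplicit false
set_option maxRecDepth 100000

namespace CL.T3
open CL.K

theorem p3_eq (j : ℕ) : p3 j = 3 ^ j := rfl

theorem isz_iff {a : ℕ} : isz a = true ↔ a = 0 := Nat.beq_eq ▸ Iff.rfl

theorem isz_false {a : ℕ} : isz a = false ↔ a ≠ 0 := by rw [← Bool.not_eq_true, isz_iff]

/-- the bytes `f 0, …, f 4` -/
def by5 (f : ℕ → ℕ) : ℕ := f 0 + 256 * f 1 + 256 ^ 2 * f 2 + 256 ^ 3 * f 3 + 256 ^ 4 * f 4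

/-- digit `i` in base `3` -/
def dg (x i : ℕ) : ℕ := x / 3 ^ i % 3

/-- digitwise sum modulo `3` of three numbers below `243` -/
def ad3 (a b c : ℕ) : ℕ := (dg a 0 + dg b 0 + dg c 0) % 3 + 3 * ((dg a 1 + dg b 1 + dg c 1) % 3) +
  9 * ((dg a 2 + dg b 2 + dg c 2) % 3) + 27 * ((dg a 3 + dg b 3 + dg c 3) % 3) + 81 * ((dg a 4 + dg b 4 + dg c 4) % 3)

theorem ad3_lt (a b c : ℕ) : ad3 a b c < 243 := by unfold ad3; omega

theorem sp_chk : allLt (fun v => Nat.beq (sp v) (by5 (dg v))) 243 = true := by decide +kernel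

theorem red_chk : allLt (fun a => allLt (fun b => allLt (fun c => allLt (fun d => allLt (fun e =>
    Nat.beq (red (a + 256 * b + 256 ^ 2 * c + 256 ^ 3 * d + 256 ^ 4 * e))
      (a % 3 + 3 * (b % 3) + 9 * (c % 3) + 27 * (d % 3) + 81 * (e % 3))) 7) 7) 7) 7) 7 = true := by decide +kernel

theorem dg_lt (x i : ℕ) : dg x i < 3 := Nat.mod_lt _ (by norm_num)

theorem red_sp {a b c : ℕ} (ha : a < 243) (hb : b < 243) (hc : c < 243) : red (sp a + sp b + sp c) = ad3 a b c := by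
  have h1 := sp_chk
  have h2 := red_chk
  simp only [allLt_iff, Nat.beq_eq] at h1 h2
  have h3 : ∀ i, dg a i + dg b i + dg c i < 7 := fun i => by
    have := dg_lt a i; have := dg_lt b i; have := dg_lt c i; omega
  rw [h1 a ha, h1 b hb, h1 c hc, ad3, ← h2 _ (h3 0) _ (h3 1) _ (h3 2) _ (h3 3) _ (h3 4)]
  congr 1
  simp only [by5]
  ring

theorem fA_chk : allLt (fun q => allLt (fun r => frc (mu (Nat.mul 243 r) (Nat.mul 243 q)) fun t => Nat.blt t 59049 &&
    (Nat.beq (Nat.shiftRight (fA q r) 40) (Nat.div t 243) &&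
      Nat.beq (Nat.land (fA q r) 0xffffffffff) (sp (Nat.mod t 243)))) 243) 243 = true := by decide +kernel

theorem fB_chk : allLt (fun q => allLt (fun r =>
    Nat.beq (fB q r) (sp (Nat.mod (mu r (Nat.mul 243 q)) 243))) 243) 243 = true := by decide +kernel

theorem iv_chk : allLt2 (fun x => frc (iv x) fun y => Nat.blt y 59049 && isz (mu x y)) 243 243 = true := by decide +kernel

/-- top digits add -/
noncomputable def digB (a b c : ℕ) : Bool := allLt (fun j => !(Nat.blt a (p3 (j + 1)) && Nat.blt b (p3 (j + 1))) ||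
  (Nat.blt c (p3 (j + 1)) && Nat.beq (Nat.div c (p3 j)) (Nat.mod (Nat.add (Nat.div a (p3 j)) (Nat.div b (p3 j))) 3))) 5

theorem digB_spec {a b c j : ℕ} (h : digB a b c = true) (hj : j < 5) (ha : a < 3 ^ (j + 1)) (hb : b < 3 ^ (j + 1)) :
    c < 3 ^ (j + 1) ∧ c / 3 ^ j = (a / 3 ^ j + b / 3 ^ j) % 3 := by
  have := allLt_iff.1 h j hj
  simp only [Bool.or_eq_true, Bool.not_eq_true', ← Bool.not_eq_true, Bool.and_eq_true, Nat.blt_eq, Nat.beq_eq, p3_eq] at this
  exact this.resolve_left fun h => h ⟨ha, hb⟩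

theorem dig_chk : allLt (fun a => allLt (fun b => frc (mu a b) (digB a b)) 243) 243 = true := by decide +kernel

theorem dig_chk' : allLt (fun a => allLt (fun b =>
    frc (Nat.div (mu (Nat.mul 243 a) (Nat.mul 243 b)) 243) (digB a b)) 243) 243 = true := by decide +kernel

theorem mu_eq' {x y : ℕ} (hx : x < 59049) (hy : y < 59049) : mu (243 * (x / 243)) (243 * (y / 243)) < 59049 ∧ mu x y =
    mu (243 * (x / 243)) (243 * (y / 243)) / 243 * 243 +
      ad3 (mu (243 * (x / 243)) (243 * (y / 243)) % 243) (mu (x % 243) (243 * (y / 243)) % 243) (y % 243) := by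
  have h1 := allLt_iff.1 (allLt_iff.1 fA_chk (y / 243) (by omega)) (x / 243) (by omega)
  have h2 := Nat.eq_of_beq_eq_true (allLt_iff.1 (allLt_iff.1 fB_chk (y / 243) (by omega)) (x % 243) (by omega))
  simp only [frc_eq, Bool.and_eq_true, Nat.blt_eq, Nat.beq_eq] at h1
  refine ⟨h1.1, ?_⟩
  rw [← red_sp (by omega) (by omega) (by omega)]
  exact congrArg₂ (· + ·) (congrArg (· * 243) h1.2.1)
    (congrArg red (congrArg (· + sp (y % 243)) (congrArg₂ (· + ·) h1.2.2 h2)))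

theorem mu_lt {x y : ℕ} (hx : x < 59049) (hy : y < 59049) : mu x y < 59049 := by
  obtain ⟨h1, h2⟩ := mu_eq' hx hy
  have := ad3_lt (mu (243 * (x / 243)) (243 * (y / 243)) % 243) (mu (x % 243) (243 * (y / 243)) % 243) (y % 243)
  omega

theorem iv_lt {x : ℕ} (hx : x < 59049) : iv x < 59049 :=
  Nat.blt_eq.mp (Bool.and_eq_true_iff.1 (allLt2_iff.1 iv_chk x hx)).1

theorem mu_iv {x : ℕ} (hx : x < 59049) : mu x (iv x) = 0 :=
  isz_iff.1 (Bool.and_eq_true_iff.1 (allLt2_iff.1 iv_chk x hx)).2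

/-- the structure of the product -/
theorem mu_eq {x y : ℕ} (hx : x < 59049) (hy : y < 59049) : mu x y =
    mu (243 * (x / 243)) (243 * (y / 243)) / 243 * 243 +
      ad3 (mu (243 * (x / 243)) (243 * (y / 243)) % 243) (mu (x % 243) (243 * (y / 243)) % 243) (y % 243) :=
  (mu_eq' hx hy).2

/-- the top digits add -/
theorem mu_dig {j x y : ℕ} (hj : j < 10) (hx : x < 3 ^ (j + 1)) (hy : y < 3 ^ (j + 1)) :
    mu x y < 3 ^ (j + 1) ∧ mu x y / 3 ^ j = (x / 3 ^ j + y / 3 ^ j) % 3 := by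
  by_cases h5 : j < 5
  · have h : 3 ^ (j + 1) ≤ 243 := Nat.pow_le_pow_right (n := 3) (j := 5) (by norm_num) h5
    exact digB_spec (allLt_iff.1 (allLt_iff.1 dig_chk x (hx.trans_le h)) y (hy.trans_le h)) h5 hx hy
  · obtain ⟨i, rfl⟩ := Nat.exists_eq_add_of_le (not_lt.1 h5)
    have h : 3 ^ (5 + i + 1) ≤ 59049 := Nat.pow_le_pow_right (n := 3) (j := 10) (by norm_num) hj
    have e : ∀ k, 3 ^ (5 + k) = 243 * 3 ^ k := fun k => pow_add 3 5 k
    rw [add_assoc, e] at hx hy h ⊢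
    have h1 := digB_spec (j := i) (allLt_iff.1 (allLt_iff.1 dig_chk' (x / 243) (by omega)) (y / 243) (by omega)) (by omega)
      (by omega) (by omega)
    have h2 := mu_eq (hx.trans_le h) (hy.trans_le h)
    have h3 := ad3_lt (mu (243 * (x / 243)) (243 * (y / 243)) % 243) (mu (x % 243) (243 * (y / 243)) % 243) (y % 243)
    have h4 : mu x y / 243 = mu (243 * (x / 243)) (243 * (y / 243)) / 243 := by omega
    simp only [e, ← Nat.div_div_eq_div_mul]
    rw [h4]
    refine ⟨?_, h1.2⟩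
    have h5 : mu (243 * (x / 243)) (243 * (y / 243)) / 243 < 3 ^ (i + 1) := h1.1
    omega

end CL.T3
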